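import Mathlib
import Cfsg.Agent.PermP.ZassCore
import Cfsg.Agent.S4292

/-!
# Structure of non-solvable Frobenius complements
-/

set_option autoImplicit false
set_option linter.all false
set_option maxHeartbeats 1000000

namespace Cfsg.Agent.PermP.Zass

open Subgroup
open Cfsg.Agent.Recog.Icosahedral

universe u

variable {G : Type u} [Group G] [Finite G]

/-- The data of a non-solvable Frobenius complement. -/
structure SLData (G : Type u) [Group G] where
  n : ℕ
  hn : 0 < n
  P : Rep G (Matrix (Fin n) (Fin n) ℚ)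
  a : G
  b : G
  z : G
  ha : IsOrd3 a
  hb : b ∈ P.B a
  e : ↥(closure ({a, b} : Set G)) ≃* Matrix.SpecialLinearGroup (Fin 2) (ZMod 5)
  normal : (closure ({a, b} : Set G)).Normal
  rho_z : P.ρ z = -1
  z_mem : z ∈ closure ({a, b} : Set G)
  index_le : (closure ({a, b} : Set G) ⊔ centralizer (closure ({a, b} : Set G) : Set G)).index ≤ 2
  zgroup : IsZGroup (centralizer (closure ({a, b} : Set G) : Set G))
  ord3_mem : ∀ x : G, IsOrd3 x → x ∈ closure ({a, b} : Set G)
  inter : ∀ y ∈ closure ({a, b} : Set G),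
    y ∈ centralizer (closure ({a, b} : Set G) : Set G) → y = 1 ∨ y = z
  sq_ne : ∀ y ∈ centralizer (closure ({a, b} : Set G) : Set G), y ^ 2 ≠ z

theorem exists_perfect_of_not_solvable (hns : ¬ Group.IsSolvable G) :
    ∃ S : Subgroup G, S ≠ ⊥ ∧ commutator S = ⊤ := by
  obtain ⟨m, hmin⟩ : ∃ m : ℕ, ∀ k, Nat.card (derivedSeries G m) ≤ Nat.card (derivedSeries G k) :=
    ⟨_, fun k => Function.argmin_le (fun k => Nat.card (derivedSeries G k)) k⟩
  refine ⟨derivedSeries G m, fun h => hns ⟨⟨m, h⟩⟩, ?_⟩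
  have h1 : derivedSeries G (m + 1) = derivedSeries G m :=
    Subgroup.eq_of_le_of_card_ge (derivedSeries_antitone G (Nat.le_succ m)) (hmin (m + 1))
  refine Subgroup.map_injective (derivedSeries G m).subtype_injective ?_
  rw [_root_.commutator_def, Subgroup.map_commutator, ← MonoidHom.range_eq_map, Subgroup.range_subtype]
  rw [derivedSeries_succ] at h1
  exact h1

theorem exists_slData (hFC : FGS.FC.IsFC G) (hns : ¬ Group.IsSolvable G) :
    Nonempty (SLData G) := by
  classical
  obtain ⟨n, ρ, hn, hf⟩ := exists_rat_rep hFC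
  haveI : Nonempty (Fin n) := ⟨⟨0, hn⟩⟩
  let P := toRep ρ hf
  obtain ⟨S, hS, hperf⟩ := exists_perfect_of_not_solvable hns
  haveI : Nontrivial S := (Subgroup.nontrivial_iff_ne_bot S).2 hS
  obtain ⟨e⟩ := perfect_isFC_equiv_sl
    (S4292.isFC_of_injective hFC S.subtype S.subtype_injective) hperf
  have h20 : 20 ≤ ({x : G | IsOrd3 x}).ncard := by
    rw [← sl_count, ← Set.ncard_coe_finset]
    refine Set.ncard_le_ncard_of_injOn (fun g => (e.symm g : G)) (fun g hg => ?_)
      (fun g _ g' _ h => e.symm.injective (Subtype.ext h))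
    simp only [Finset.coe_filter, Finset.mem_univ, true_and, Set.mem_setOf_eq] at hg
    refine ⟨?_, fun h => hg.2 ?_⟩
    · have := congrArg (fun y => (e.symm y : G)) hg.1
      simpa [pow_succ, mul_assoc] using this
    · rw [← e.apply_symm_apply g, show e.symm g = 1 from Subtype.ext h, map_one]
  obtain ⟨a₀, ha₀⟩ : ({x : G | IsOrd3 x}).Nonempty :=
    Set.nonempty_of_ncard_ne_zero (by omega)
  obtain ⟨a, b, ha, hb⟩ : ∃ a b, IsOrd3 a ∧ b ∈ P.B a := by
    by_contra hno
    push Not at hno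
    have := (P.ncard_ord3 ha₀).2 fun x y hx hy h => hno x y hx ⟨hy, h⟩
    omega
  obtain ⟨z, e', h1, h2, h3, h4, h5, h6, h7, h8⟩ := bpair_structure hFC P ha hb
  exact ⟨⟨n, hn, P, a, b, z, ha, hb, e', h1, h2, h3, h4, h5, h6, h7, h8⟩⟩

namespace SLData

variable (D : SLData G)

/-- The copy of `SL(2,5)`. -/
abbrev S : Subgroup G := closure ({D.a, D.b} : Set G)

/-- Its centraliser. -/
abbrev C : Subgroup G := centralizer (D.S : Set G)

theorem card_S : Nat.card D.S = 120 := (Nat.card_congr D.e.toEquiv).trans nat_card_SL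

theorem z_ne_one : D.z ≠ 1 := fun h => by
  haveI : Nonempty (Fin D.n) := ⟨⟨0, D.hn⟩⟩
  have := D.rho_z
  rw [h, map_one] at this
  exact Rep.two_ne (R := Matrix (Fin D.n) (Fin D.n) ℚ) (by
    linear_combination
      (norm := (noncomm_ring <;> norm_num [zsmul_eq_mul, nsmul_eq_mul] <;> noncomm_ring)) this)

theorem z_sq : D.z * D.z = 1 := by
  haveI : Nonempty (Fin D.n) := ⟨⟨0, D.hn⟩⟩
  exact D.P.injective (by rw [map_mul, D.rho_z, map_one, neg_mul_neg, one_mul])

theorem z_central (g : G) : g * D.z = D.z * g := by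
  haveI : Nonempty (Fin D.n) := ⟨⟨0, D.hn⟩⟩
  exact D.P.injective (by rw [map_mul, map_mul, D.rho_z, mul_neg_one, neg_one_mul])

theorem z_mem_C : D.z ∈ D.C := mem_centralizer_iff.2 fun g _ => D.z_central g

theorem involution_eq {x : G} (hx : x * x = 1) (hx1 : x ≠ 1) : x = D.z := by
  haveI : Nonempty (Fin D.n) := ⟨⟨0, D.hn⟩⟩
  refine D.P.injective ?_
  have e : (D.P.ρ x - 1) * (D.P.ρ x + 1) = (D.P.ρ x - 1) * 0 := by
    rw [mul_zero, sub_mul, mul_add, mul_one, one_mul, ← map_mul, hx, map_one]; abel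
  have h := (D.P.fpf x hx1).mul_left_cancel e
  rw [D.rho_z]
  linear_combination
    (norm := (noncomm_ring <;> norm_num [zsmul_eq_mul, nsmul_eq_mul] <;> noncomm_ring)) h

theorem sl_five : ∃ g : Matrix.SpecialLinearGroup (Fin 2) (ZMod 5), orderOf g = 5 :=
  ⟨slY, orderOf_eq_prime (p := 5) (hp := ⟨by norm_num⟩) sl_rel.2.1 (by decide)⟩

theorem not_mem_C_of_order (hFC : FGS.FC.IsFC G) {c : G} {p : ℕ} [hp : Fact p.Prime]
    (hp' : p = 3 ∨ p = 5) (hc : orderOf c = p) : c ∉ D.C := by
  intro hcC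
  have hc1 : c ≠ 1 := fun h => by rw [h, orderOf_one] at hc; exact hp.out.ne_one hc.symm
  have hcpow : c ^ p = 1 := hc ▸ pow_orderOf_eq_one c
  have hz : c ≠ D.z := fun h => by
    have h2 : orderOf c ∣ 2 := orderOf_dvd_of_pow_eq_one (by rw [h, pow_two, D.z_sq])
    rw [hc] at h2
    rcases hp' with rfl | rfl <;> norm_num at h2
  have hcS : c ∈ D.S := by
    rcases hp' with rfl | rfl
    · exact D.ord3_mem c ⟨hcpow, hc1⟩
    obtain ⟨g, hg⟩ := sl_five
    set s : G := ((D.e.symm g : D.S) : G) with hs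
    have hso : orderOf s = 5 := by
      rw [hs, Subgroup.orderOf_coe, MulEquiv.orderOf_eq, hg]
    have hcom : s * c = c * s := mem_centralizer_iff.1 hcC s (D.e.symm g).2
    let E : Subgroup G := closure ({s, c} : Set G)
    haveI hE : IsMulCommutative E := Subgroup.isMulCommutative_closure (by
      rintro x (rfl | rfl) y (rfl | rfl) <;> first | rfl | exact hcom | exact hcom.symm)
    have hpow : ∀ y ∈ E, y ^ 5 = 1 := by
      intro y hy
      induction hy using Subgroup.closure_induction with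
      | mem x hx =>
        rcases hx with rfl | rfl
        · exact hso ▸ pow_orderOf_eq_one s
        · exact hcpow
      | one => exact one_pow 5
      | mul x y hx hy hx' hy' =>
        have : Commute x y := congrArg Subtype.val (mul_comm' (⟨x, hx⟩ : E) ⟨y, hy⟩)
        rw [this.mul_pow, hx', hy', one_mul]
      | inv x _ hx' => rw [inv_pow, hx', inv_one]
    haveI : IsCyclic E :=
      isCyclic_of_isPGroup hFC (by norm_num) (p := 5) fun y =>
        ⟨1, Subtype.ext (by rw [pow_one, Subgroup.coe_pow, hpow y.1 y.2]; rfl)⟩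
    obtain ⟨g0, hg0⟩ := IsCyclic.exists_generator (α := E)
    have h5 : Nat.card E ≤ 5 := by
      rw [← orderOf_eq_card_of_forall_mem_zpowers hg0]
      exact Nat.le_of_dvd (by norm_num)
        (orderOf_dvd_of_pow_eq_one (Subtype.ext (by rw [Subgroup.coe_pow, hpow g0.1 g0.2]; rfl)))
    have hle : zpowers s ≤ E := zpowers_le.2 (subset_closure (Set.mem_insert _ _))
    have heq : zpowers s = E := eq_of_le_of_card_ge hle (by rw [Nat.card_zpowers, hso]; exact h5)
    have : c ∈ zpowers s := heq ▸ subset_closure (Set.mem_insert_of_mem _ rfl)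
    exact zpowers_le.2 (D.e.symm g).2 this
  rcases D.inter c hcS hcC with h | h
  · exact hc1 h
  · exact hz h

theorem exists_odd_complement (hFC : FGS.FC.IsFC G) :
    ∃ M : Subgroup G, M ≤ D.C ∧ D.S ⊓ M = ⊥ ∧ (∀ x ∈ D.C, x ∈ M ∨ x * D.z ∈ M) ∧
      IsZGroup M ∧ (Nat.card M).Coprime 30 := by
  classical
  haveI := D.zgroup
  haveI : Fact (Nat.Prime 2) := ⟨Nat.prime_two⟩
  let zC : D.C := ⟨D.z, D.z_mem_C⟩
  have hzo : orderOf zC = 2 := orderOf_eq_prime (Subtype.ext (by
    change D.z ^ 2 = 1; rw [pow_two, D.z_sq])) (fun h => D.z_ne_one (congrArg Subtype.val h))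
  have h2 : 2 ∣ Nat.card D.C := hzo ▸ orderOf_dvd_natCard zC
  have hmin : (Nat.card D.C).minFac = 2 := by rw [Nat.minFac_eq_two_iff]; exact h2
  obtain ⟨Q⟩ : Nonempty (Sylow 2 D.C) := inferInstance
  have hc : IsCyclic (Q : Subgroup D.C) := inferInstance
  set K := (MonoidHom.transferSylow Q (hc.normalizer_le_centralizer hmin)).ker with hK
  have hcompl : K.IsComplement' (Q : Subgroup D.C) := hc.isComplement' hmin
  have hodd : ¬ 2 ∣ Nat.card K := by
    intro h
    obtain ⟨k, hk⟩ := exists_prime_orderOf_dvd_card' (G := K) 2 h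
    have hk' : (k : D.C) = zC := by
      apply Subtype.ext
      refine D.involution_eq ?_ ?_
      · have := congrArg (fun x : K => ((x : D.C) : G)) (hk ▸ pow_orderOf_eq_one k)
        simpa [pow_two] using this
      · intro h1
        have : k = 1 := Subtype.ext (Subtype.ext h1)
        rw [this, orderOf_one] at hk; norm_num at hk
    have hzQ : zC ∈ (Q : Subgroup D.C) := by
      haveI : (zpowers zC).Normal := ⟨fun y hy g => by
        obtain ⟨j, rfl⟩ := hy
        have hz : Commute g (zC ^ j) :=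
          (show Commute g zC from Subtype.ext (D.z_central g.1)).zpow_right j
        rw [hz.eq, mul_inv_cancel_right]
        exact ⟨j, rfl⟩⟩
      exact (IsPGroup.of_card (p := 2) (n := 1) (by rw [Nat.card_zpowers, hzo, pow_one]) :
        IsPGroup 2 (zpowers zC)).le_sylow_of_normal Q (mem_zpowers zC)
    have : zC ∈ K ⊓ (Q : Subgroup D.C) := ⟨hk' ▸ k.2, hzQ⟩
    rw [(Subgroup.IsComplement'.disjoint hcompl).eq_bot, mem_bot] at this
    rw [this, orderOf_one] at hzo; norm_num at hzo
  have hQ : ∀ q ∈ (Q : Subgroup D.C), q = 1 ∨ q = zC := by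
    intro q hq
    obtain ⟨k, hk⟩ := Q.isPGroup' ⟨q, hq⟩
    have hk' : (q : G) ^ 2 ^ k = 1 := congrArg (fun x : (Q : Subgroup D.C) => ((x : D.C) : G)) hk
    have two : ∀ y : G, y ^ 2 = 1 → y = 1 ∨ y = D.z := fun y hy => by
      by_cases h1 : y = 1
      · exact Or.inl h1
      · exact Or.inr (D.involution_eq (by rw [← pow_two]; exact hy) h1)
    have key : ∀ (k : ℕ), ∀ y ∈ D.C, y ^ 2 ^ k = 1 → y = 1 ∨ y = D.z := by
      intro k
      induction k with
      | zero => intro y _ hy; exact Or.inl (by simpa using hy)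
      | succ k ih =>
        intro y hy h
        rw [show 2 ^ (k + 1) = 2 * 2 ^ k from pow_succ' 2 k, pow_mul] at h
        rcases ih (y ^ 2) (pow_mem hy 2) h with e | e
        · exact two y e
        · exact absurd e (D.sq_ne y hy)
    rcases key k q q.2 hk' with e | e
    · exact Or.inl (Subtype.ext e)
    · exact Or.inr (Subtype.ext e)
  refine ⟨K.map D.C.subtype, map_subtype_le K, ?_, ?_, ?_, ?_⟩
  · rw [eq_bot_iff]
    rintro x ⟨hxS, ⟨k, hk, rfl⟩⟩
    rcases D.inter _ hxS k.2 with h | h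
    · exact mem_bot.2 h
    · exfalso
      apply hodd
      have : orderOf (⟨k, hk⟩ : K) = 2 := by
        rw [← Subgroup.orderOf_coe]; exact (congrArg orderOf (show k = zC from Subtype.ext h)).trans hzo
      exact this ▸ orderOf_dvd_natCard _
  · intro x hx
    obtain ⟨⟨k, q⟩, hkq⟩ := hcompl.2 (⟨x, hx⟩ : D.C)
    simp only at hkq
    rcases hQ q.1 q.2 with h | h <;> rw [h] at hkq
    · exact Or.inl ⟨k.1, k.2, by rw [mul_one] at hkq; rw [hkq]; rfl⟩
    · refine Or.inr ⟨k.1, k.2, ?_⟩
      have := congrArg (fun y : D.C => (y : G) * D.z) hkq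
      simpa [zC, mul_assoc, D.z_sq] using this
  · exact IsZGroup.of_injective
      (f := ((K.equivMapOfInjective _ D.C.subtype_injective).symm.toMonoidHom))
      (MulEquiv.injective _)
  · rw [Subgroup.card_map_of_injective D.C.subtype_injective]
    have h35 : ∀ p : ℕ, p = 3 ∨ p = 5 → ¬ p ∣ Nat.card K := by
      intro p hp hd
      haveI : Fact p.Prime := ⟨by rcases hp with rfl | rfl <;> norm_num⟩
      obtain ⟨k, hk⟩ := exists_prime_orderOf_dvd_card' (G := K) p hd
      exact D.not_mem_C_of_order hFC hp (c := ((k : D.C) : G))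
        (by rw [Subgroup.orderOf_coe, Subgroup.orderOf_coe, hk]) (k : D.C).2
    have e2 : (Nat.card K).Coprime 2 := ((Nat.prime_two.coprime_iff_not_dvd).2 hodd).symm
    have e3 : (Nat.card K).Coprime 3 :=
      ((Nat.prime_three.coprime_iff_not_dvd).2 (h35 3 (Or.inl rfl))).symm
    have e5 : (Nat.card K).Coprime 5 :=
      (((by norm_num : Nat.Prime 5).coprime_iff_not_dvd).2 (h35 5 (Or.inr rfl))).symm
    rw [show (30 : ℕ) = 2 * 3 * 5 by norm_num]
    exact Nat.Coprime.mul_right (Nat.Coprime.mul_right e2 e3) e5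

end SLData

end Cfsg.Agent.PermP.Zass
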